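import Cfsg.Agent.R2.Spec.X1.TI.Sit
import Cfsg.Agent.H360.Iso.Sp
import Cfsg.Agent.H360.Iso.Lin
import Cfsg.Agent.H360.Iso.Uni

/-!
# S3478, identification rows `PSL_m`, `PSU_m`, `Ω_{2m+1}`, `PSp_{2m}` (helper458)
-/

set_option autoImplicit false

namespace Cfsg.Agent.R2.Spec.X1.TRd

open Cfsg Cfsg.Agent.R2.Spec.X1.TI Cfsg.Agent.H360.Iso Cfsg.Agent.R2.Spec.X1.TD
open Cfsg.Agent.H948.UBase Cfsg.Agent.H948.UProd

section

variable {p q : ℕ} {S : Type*} [Group S]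

/-- `mm q` is an isolated number -/
theorem isoN (h : Sit p q S) : IsoN S (R2.Spec.X1.TD.mm q) where
  elt := h.mm
  iso := fun x _ hr hrn hrx => h.dvd_mm ⟨x, rfl⟩ hr hrx hrn
  not_two_dvd := fun h2 => by
    have := mm_mod h.par
    omega
  not_three_dvd := fun h3 => by
    have := mm_mod h.par
    omega
  big := by
    have := mm_ge h.par
    omega

theorem five_sq {Q : ℤ} (h : 5 ≤ Q) : 5 * Q ≤ Q ^ 2 := by
  rw [sq]
  exact mul_le_mul_of_nonneg_right h (by omega)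

theorem five_cube {Q : ℤ} (h : 5 ≤ Q) : 5 * Q ^ 2 ≤ Q ^ 3 := by
  have : Q ^ 3 = Q * Q ^ 2 := by ring
  rw [this]
  exact mul_le_mul_of_nonneg_right h (sq_nonneg Q)

theorem five_four {Q : ℤ} (h : 5 ≤ Q) : 5 * Q ^ 3 ≤ Q ^ 4 := by
  have : Q ^ 4 = Q * Q ^ 3 := by ring
  rw [this]
  exact mul_le_mul_of_nonneg_right h (pow_nonneg (by omega) 3)

/-- numbers -/
theorem nums (h : Par p q) : ∃ n Q D D' : ℤ, n = (R2.Spec.X1.TD.mm q : ℕ) ∧ Q = q ∧ 5 ≤ Q ∧ n = Q ^ 4 - Q ^ 2 + 1 ∧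
    D = Q ^ 3 + Q ^ 2 - Q - 2 ∧ D' = Q ^ 3 - Q ^ 2 - Q + 2 ∧
    (((q ^ 3 - 1) * (q + 1) : ℕ) : ℤ) = n + D ∧ (((q ^ 3 + 1) * (q - 1) : ℕ) : ℤ) = n - D' ∧
    ((q * (q ^ 3 - 1) : ℕ) : ℤ) = n + (Q ^ 2 - Q - 1) ∧ ((q * (q ^ 3 + 1) : ℕ) : ℤ) = n + (Q ^ 2 + Q - 1) := by
  have hq := h.hq
  have h1 : 1 ≤ q ^ 3 := Nat.one_le_pow _ _ (by omega)
  refine ⟨_, _, _, _, rfl, rfl, by exact_mod_cast h.q5, mm_cast hq, rfl, rfl, ?_, ?_, ?_, ?_⟩
  · push_cast [h1]
    rw [mm_cast hq]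
    ring
  · have h1 : 1 ≤ q := by omega
    push_cast [h1]
    rw [mm_cast hq]
    ring
  · push_cast [h1]
    rw [mm_cast hq]
    ring
  · push_cast [h1]
    rw [mm_cast hq]
    ring

/-- two element orders at distance at most two, one of them `n` -/
theorem no_near (h : Par p q) {a : ℕ} (ho : Om p q a) (h1 : a ≠ R2.Spec.X1.TD.mm q) (h2 : a ≤ R2.Spec.X1.TD.mm q + 2)
    (h3 : R2.Spec.X1.TD.mm q ≤ a + 2) : False := by
  have h73 := mm_ge h
  obtain ⟨n, Q, D, D', hn, hQ, hQ3, hnQ, hD, hD', hA, hB, hA4, hA5⟩ := nums h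
  have e1 : 5 * Q ≤ Q ^ 2 := five_sq hQ3
  have e2 : 5 * Q ^ 2 ≤ Q ^ 3 := five_cube hQ3
  have h2' : (a : ℤ) ≤ n + 2 := by rw [hn]; exact_mod_cast h2
  have h3' : n ≤ (a : ℤ) + 2 := by rw [hn]; exact_mod_cast h3
  rcases Om.large h ho (by omega) with h4 | h4 | h4 | h4 | h4
  · exact h1 h4
  · rw [← h4] at hA
    omega
  · rw [← h4] at hB
    omega
  · rw [← h4] at hA4
    omega
  · rw [← h4] at hA5
    omega

theorem not_twin [Finite S] (h : Sit p q S) {A B : ℕ} (hAB : A + 1 = B ∨ A + 2 = B)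
    (ht : Twin S (R2.Spec.X1.TD.mm q) A B) : False := by
  obtain ⟨h1 | h1, hA, hB⟩ := ht
  · exact no_near h.par (h.ord hB) (by omega) (by omega) (by omega)
  · exact no_near h.par (h.ord hA) (by omega) (by omega) (by omega)

end

/-- **`Ω_{2m+1}(u)`** -/
theorem row_omega_odd {p q : ℕ} {F : Type*} [Field F] [Fintype F] {m : ℕ} (hm : 3 ≤ m) (hF : Odd (Fintype.card F))
    (h : Sit p q (Cfsg.POmega F (Cfsg.quadFormOdd m F))) : False := by
  classical
  have hfin : Finite (Cfsg.POmega F (Cfsg.quadFormOdd m F)) := inferInstance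
  obtain ⟨A, B, hAB, ht⟩ := omegaOdd (by rwa [Nat.card_eq_fintype_card]) hm (isoN h)
  exact not_twin h hAB ht

/-- **`PSp_{2m}(u)`** -/
theorem row_psp {p q : ℕ} {F : Type*} [Field F] [Fintype F] {m : ℕ} (hm : 2 ≤ m)
    (h : Sit p q (Cfsg.PSp m F)) : False := by
  classical
  have hfin : Finite (Cfsg.PSp m F) := inferInstance
  obtain ⟨A, B, hAB, ht⟩ := psp hm (isoN h)
  exact not_twin h hAB ht

/-- an order `a` with `w (a - n) = n + s`, `1 ≤ s ≤ w + 1`, `s ∣ w + 1`  -/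
theorem no_above {p q : ℕ} (h : Par p q) {a : ℕ} (ho : Om p q a) {w s : ℤ} (hw : 1 ≤ w) (hs : 1 ≤ s) (hsw : s ≤ w + 1)
    (hsd : s ∣ w + 1)
    (heq : w * ((a : ℤ) - (R2.Spec.X1.TD.mm q : ℕ)) = (R2.Spec.X1.TD.mm q : ℕ) + s) : False := by
  have h73 := mm_ge h
  obtain ⟨n, Q, D, D', hn, hQ, hQ3, hnQ, hD, hD', hA, hB, hA4, hA5⟩ := nums h
  rw [← hn] at heq
  have h73' : 73 ≤ n := by rw [hn]; exact_mod_cast h73
  have e1 : 5 * Q ≤ Q ^ 2 := five_sq hQ3
  have e2 : 5 * Q ^ 2 ≤ Q ^ 3 := five_cube hQ3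
  have e3 : 5 * Q ^ 3 ≤ Q ^ 4 := five_four hQ3
  have hpos : n < a := by
    by_contra hc
    have : w * ((a : ℤ) - n) ≤ 0 := mul_nonpos_of_nonneg_of_nonpos (by omega) (by omega)
    omega
  rcases Om.large h ho (by omega) with h4 | h4 | h4 | h4 | h4
  · rw [h4] at hpos
    omega
  · rw [← h4] at hA
    have h5 : w * D = n + s := by rw [← heq, hA]; ring
    have h6 : (Q - 1) * D = Q ^ 4 - 2 * Q ^ 2 - Q + 2 := by rw [hD]; ring
    rcases le_or_gt w (Q - 1) with h7 | h7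
    · have := mul_le_mul_of_nonneg_right h7 (show 0 ≤ D by omega)
      omega
    · have h8 := mul_le_mul_of_nonneg_right (show Q ≤ w by omega) (show 0 ≤ D - 1 by omega)
      have h9 : w * (D - 1) = w * D - w := by ring
      have h10 : Q * (D - 1) = Q ^ 4 + Q ^ 3 - Q ^ 2 - 3 * Q := by rw [hD]; ring
      omega
  · rw [← h4] at hB
    omega
  · -- `a = Q⁴ - Q`
    rw [← h4] at hA4
    have h5 : w * (Q ^ 2 - Q - 1) = n + s := by rw [← heq, hA4]; ring
    obtain ⟨t, ht⟩ : ∃ t, t = w - (Q ^ 2 + Q + 1) := ⟨_, rfl⟩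
    have h6 : t * (Q ^ 2 - Q - 1) = 2 * Q + 2 + s := by rw [ht]; linear_combination h5 + hnQ
    have ht0 : 1 ≤ t := by
      by_contra hc
      have := mul_nonpos_of_nonpos_of_nonneg (show t ≤ 0 by omega) (show 0 ≤ Q ^ 2 - Q - 1 by omega)
      omega
    have ht2 : t ≤ 2 := by
      by_contra hc
      have h7 := mul_le_mul_of_nonneg_right (show 3 ≤ t by omega) (show 0 ≤ Q ^ 2 - Q - 2 by omega)
      have h8 : t * (Q ^ 2 - Q - 2) = t * (Q ^ 2 - Q - 1) - t := by ring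
      rw [h8, h6] at h7
      omega
    obtain ⟨z, hz⟩ := hsd
    have ht' : t = 1 ∨ t = 2 := by omega
    rcases ht' with rfl | rfl
    · -- `s = Q² - 3 Q - 3` divides `Q² + Q + 3`
      have h7 : s = Q ^ 2 - 3 * Q - 3 := by linarith
      have h8 : w + 1 = Q ^ 2 + Q + 3 := by linarith
      rw [h7, h8] at hz
      have h9 : (Q ^ 2 - 3 * Q - 3) ∣ 4 * Q + 6 := ⟨z - 1, by linear_combination hz⟩
      have h10 := Int.le_of_dvd (by linarith) h9
      have h11 : Q ≤ 8 := by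
        by_contra hc
        have h13 : 9 * Q ≤ Q ^ 2 := by
          rw [sq]
          exact mul_le_mul_of_nonneg_right (by omega) (by omega)
        linarith
      have hodd := h.q_odd
      have h12 : Q = 5 ∨ Q = 7 := by clear hz h6 h5 heq h10 h9 h7 h8; omega
      obtain ⟨y, hy⟩ := h9
      rcases h12 with h12 | h12 <;> rw [h12] at hy <;> clear * - hy <;> omega
    · have h7 : s = 2 * Q ^ 2 - 4 * Q - 4 := by linarith
      have h8 : w + 1 = Q ^ 2 + Q + 4 := by linarith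
      have h9 : Q ≤ 6 := by
        by_contra hc
        have h13 : 7 * Q ≤ Q ^ 2 := by
          rw [sq]
          exact mul_le_mul_of_nonneg_right (by omega) (by omega)
        linarith
      have h12 : Q = 5 ∨ Q = 6 := by clear hz h6 h5 heq h7 h8; omega
      rw [h7, h8] at hz
      rcases h12 with h12 | h12 <;> rw [h12] at hz <;> clear * - hz <;> omega
  · -- `a = Q⁴ + Q`
    rw [← h4] at hA5
    have h5 : w * (Q ^ 2 + Q - 1) = n + s := by rw [← heq, hA5]; ring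
    obtain ⟨t, ht⟩ : ∃ t, t = w - (Q ^ 2 - Q + 1) := ⟨_, rfl⟩
    have h6 : t * (Q ^ 2 + Q - 1) = s - 2 * Q + 2 := by rw [ht]; linear_combination h5 + hnQ
    have ht0 : 0 ≤ t := by
      by_contra hc
      have h7 := mul_le_mul_of_nonneg_right (show t ≤ -1 by omega) (show 0 ≤ Q ^ 2 + Q - 1 by omega)
      omega
    have ht1 : t < 1 := by
      by_contra hc
      have h7 := mul_le_mul_of_nonneg_right (show 1 ≤ t by omega) (show 0 ≤ Q ^ 2 + Q - 2 by omega)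
      have h8 : t * (Q ^ 2 + Q - 2) = t * (Q ^ 2 + Q - 1) - t := by ring
      rw [h8, h6] at h7
      omega
    obtain rfl : t = 0 := by omega
    rw [zero_mul] at h6
    obtain ⟨z, hz⟩ := hsd
    have h7 : s = 2 * (Q - 1) := by linarith
    have h8 : w + 1 = Q * (Q - 1) + 2 := by linear_combination -ht
    rw [h7, h8] at hz
    have h9 : (Q - 1) ∣ 2 := ⟨2 * z - Q, by linear_combination hz⟩
    have := Int.le_of_dvd (by norm_num) h9
    omega

/-- an order `a` with `w (n - a) = n - 1`, `4 ≤ w` -/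
theorem no_below {p q : ℕ} (h : Par p q) {a : ℕ} (ho : Om p q a) {w : ℤ} (hw : 4 ≤ w)
    (heq : w * ((R2.Spec.X1.TD.mm q : ℕ) - (a : ℤ)) = (R2.Spec.X1.TD.mm q : ℕ) - 1) : False := by
  have h73 := mm_ge h
  obtain ⟨n, Q, D, D', hn, hQ, hQ3, hnQ, hD, hD', hA, hB, hA4, hA5⟩ := nums h
  rw [← hn] at heq
  have h73' : 73 ≤ n := by rw [hn]; exact_mod_cast h73
  have e1 : 5 * Q ≤ Q ^ 2 := five_sq hQ3
  have e2 : 5 * Q ^ 2 ≤ Q ^ 3 := five_cube hQ3
  have e3 : 5 * Q ^ 3 ≤ Q ^ 4 := five_four hQ3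
  have hpos : (a : ℤ) < n := by
    by_contra hc
    have : w * (n - (a : ℤ)) ≤ 0 := mul_nonpos_of_nonneg_of_nonpos (by omega) (by omega)
    omega
  have hge : 4 * (n - (a : ℤ)) ≤ n - 1 := by
    rw [← heq]
    exact mul_le_mul_of_nonneg_right hw (by omega)
  rcases Om.large h ho (by omega) with h4 | h4 | h4 | h4 | h4
  · rw [h4] at hpos
    omega
  · rw [← h4] at hA
    omega
  · rw [← h4] at hB
    have h5 : w * D' = n - 1 := by rw [← heq, hB]; ring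
    have h6 : (Q + 1) * D' = Q ^ 4 - 2 * Q ^ 2 + Q + 2 := by rw [hD']; ring
    rcases le_or_gt w (Q + 1) with h7 | h7
    · have := mul_le_mul_of_nonneg_right h7 (show 0 ≤ D' by omega)
      linarith
    · have h8 := mul_le_mul_of_nonneg_right (show Q + 2 ≤ w by omega) (show 0 ≤ D' by omega)
      have h10 : (Q + 2) * D' = Q ^ 4 + Q ^ 3 - 3 * Q ^ 2 + 4 := by rw [hD']; ring
      omega
  · rw [← h4] at hA4
    omega
  · rw [← h4] at hA5
    omega

end Cfsg.Agent.R2.Spec.X1.TRd
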